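import Cfsg.Agent.Blocks.Osima
import Cfsg.Agent.S0907
import Cfsg.Agent.S0908

/-!
# Characters forced into the principal block by the orders of the centralizers (helper670)

`mem_principal_of_class` : let `p ^ a` be the `p`-part of `|G|`, `χ` irreducible, `p ^ h` the `p`-part of `χ(1)`, `h < a`.  If
`p ^ (a - h)` does not divide `|C(y)|` for the `p`-regular `y ≠ 1`, then `χ` is in the principal block.
-/

set_option autoImplicit false

open Cfsg Subgroup

namespace Cfsg.Agent.H670.Hg

universe u

variable {G : Type u} [Group G] {p : ℕ} {M : Ideal AlgInt}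

theorem blockCoeff_singular [Finite G] [Fact p.Prime] (hM : IsPModular p M) {B : Set (IrrCharacter G)}
    (hB : IsPBlock M B) {g : G} (hg : p ∣ orderOf g) : blockCoeff B g = 0 := by
  have h1 := S0907.result p M hM B hB (1 : G) g (by rw [orderOf_one]; exact (Fact.out : p.Prime).one_lt.ne' ∘ Nat.dvd_one.1) hg
  rw [Blocks.Basic.blockCoeff_def, h1, mul_zero]

theorem pow_dvd_centralizer [Finite G] [Fact p.Prime] (hM : IsPModular p M) (χ : IrrCharacter G) {g : G}
    (hg : IsDefectClass M (blockOf M (χ : G → ℂ)) g) :
    p ^ ((Nat.card G).factorization p - (charDegree (χ : G → ℂ)).factorization p) ∣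
      Nat.card (centralizer ({g} : Set G)) := by
  have hB : IsPBlock M (blockOf M (χ : G → ℂ)) := ⟨χ, rfl⟩
  have hMp : M.IsPrime := hM.2.1.isPrime
  obtain ⟨P⟩ : Nonempty (Sylow p (centralizer ({g} : Set G))) := inferInstance
  have hD : IsDefectGroup p M (blockOf M (χ : G → ℂ)) (P.1.map (centralizer ({g} : Set G)).subtype) := ⟨g, hg, P, rfl⟩
  have h1 := S0908.result p M hM _ hB _ hD
  have h2 : Nat.card (P.1.map (centralizer ({g} : Set G)).subtype) = Nat.card P :=
    Subgroup.card_map_of_injective (Subgroup.subtype_injective _)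
  rw [h2] at h1
  have h3 : sInf ((fun ψ : IrrCharacter G => (charDegree (ψ : G → ℂ)).factorization p) '' blockOf M (χ : G → ℂ)) ≤
      (charDegree (χ : G → ℂ)).factorization p := Nat.sInf_le ⟨χ, Blocks.Basic.mem_blockOf_self χ, rfl⟩
  have h4 : p ^ ((Nat.card G).factorization p - (charDegree (χ : G → ℂ)).factorization p) ∣ Nat.card P := by
    rw [h1]
    unfold blockDefect
    exact pow_dvd_pow p (by omega)
  exact h4.trans (Subgroup.card_subgroup_dvd_card _)

/-- **Characters in the principal block.** -/
theorem mem_principal_of_class [Finite G] [Fact p.Prime] (hM : IsPModular p M) (χ : IrrCharacter G)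
    (hpos : (charDegree (χ : G → ℂ)).factorization p < (Nat.card G).factorization p)
    (hy : ∀ y : G, y ≠ 1 → ¬ p ∣ orderOf y →
      ¬ p ^ ((Nat.card G).factorization p - (charDegree (χ : G → ℂ)).factorization p) ∣
        Nat.card (centralizer ({y} : Set G))) : χ ∈ principalBlock M G := by
  classical
  have hp : p.Prime := Fact.out
  by_contra hn
  have := Fintype.ofFinite (ConjClasses G)
  have hB : IsPBlock M (blockOf M (χ : G → ℂ)) := ⟨χ, rfl⟩
  have hMp : M.IsPrime := hM.2.1.isPrime
  obtain ⟨g, hg⟩ := Blocks.Osima.exists_isDefectClass hM hB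
  have hg0 : ¬ p ∣ orderOf g := by
    intro h
    apply hg.2.1
    rw [blockCoeff_singular hM hB h]
    exact Blocks.Local.memLocalIdeal_zero
  have hg1 : g = 1 := by
    by_contra hne
    exact hy g hne hg0 (pow_dvd_centralizer hM χ hg)
  subst hg1
  -- the trivial character
  have hone : IsIrrCharacter G (fun _ : G => (1 : ℂ)) := Characters.Core.isIrr_one
  have hnot : (⟨fun _ => 1, hone⟩ : IrrCharacter G) ∉ blockOf M (χ : G → ℂ) := by
    intro h
    apply hn
    exact Blocks.Osima.sameBlock_symm h
  have h1 := Blocks.Osima.sum_blockCoeff_mul_centralChar_of_notMem hnot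
  rw [← Finset.add_sum_erase _ _ (Finset.mem_univ (ConjClasses.mk (1 : G)))] at h1
  have hout : (Quotient.out (ConjClasses.mk (1 : G)) : G) = 1 := by
    have h2 : ConjClasses.mk (Quotient.out (ConjClasses.mk (1 : G)) : G) = ConjClasses.mk (1 : G) := Quotient.out_eq _
    have h3 := ConjClasses.mk_eq_mk_iff_isConj.1 h2
    exact (isConj_one_left.1 h3)
  have h4 : MemLocalIdeal M (∑ c ∈ Finset.univ.erase (ConjClasses.mk (1 : G)),
      blockCoeff (blockOf M (χ : G → ℂ)) (Quotient.out c) * centralChar (fun _ : G => (1 : ℂ)) (Quotient.out c : G)) := by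
    refine Blocks.Local.memLocalIdeal_sum fun c hc => ?_
    by_cases h5 : p ∣ orderOf (Quotient.out c : G)
    · rw [blockCoeff_singular hM hB h5, zero_mul]
      exact Blocks.Local.memLocalIdeal_zero
    · have h6 : (Quotient.out c : G) ≠ 1 := by
        intro h7
        apply (Finset.mem_erase.1 hc).1
        have h8 : ConjClasses.mk (Quotient.out c : G) = c := Quotient.out_eq c
        rw [← h8, h7]
      refine Blocks.Local.memLocalIdeal_mul_left (Blocks.Osima.memLocalRing_blockCoeff hM hB _) ?_
      have h7 : centralChar (fun _ : G => (1 : ℂ)) (Quotient.out c : G) =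
          (((centralizer ({(Quotient.out c : G)} : Set G)).index : ℕ) : ℂ) := by
        unfold centralChar
        rw [mul_one, div_one]
      rw [h7, Blocks.Local.memLocalIdeal_natCast_iff hM]
      by_contra h8
      apply hy _ h6 h5
      have h9 := (centralizer ({(Quotient.out c : G)} : Set G)).card_mul_index
      have h10 : (Nat.card G).factorization p ≤ (Nat.card (centralizer ({(Quotient.out c : G)} : Set G))).factorization p := by
        rw [← h9, Nat.factorization_mul Nat.card_pos.ne' (Subgroup.index_ne_zero_of_finite), Finsupp.add_apply,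
          Nat.factorization_eq_zero_of_not_dvd h8, add_zero]
      exact (pow_dvd_pow p (by omega)).trans ((Nat.Prime.pow_dvd_iff_le_factorization hp Nat.card_pos.ne').2 h10)
  apply hg.2.1
  rw [hout] at h1
  have h5 : centralChar (fun _ : G => (1 : ℂ)) (1 : G) = 1 := by
    unfold centralChar
    rw [mul_one, div_one]
    have h6 : centralizer ({(1 : G)} : Set G) = ⊤ := by
      rw [eq_top_iff]
      intro x _
      rw [mem_centralizer_singleton_iff]
      simp
    rw [h6, Subgroup.index_top, Nat.cast_one]
  have h6 : blockCoeff (blockOf M (χ : G → ℂ)) (1 : G) = -(∑ c ∈ Finset.univ.erase (ConjClasses.mk (1 : G)),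
      blockCoeff (blockOf M (χ : G → ℂ)) (Quotient.out c) * centralChar (fun _ : G => (1 : ℂ)) (Quotient.out c : G)) := by
    rw [eq_neg_iff_add_eq_zero, ← h1]
    congr 1
    show _ = _ * centralChar (fun _ : G => (1 : ℂ)) 1
    rw [h5, mul_one]
  rw [h6]
  exact Blocks.Local.memLocalIdeal_neg h4

end Cfsg.Agent.H670.Hg
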